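import Cfsg.Prelude.Def_BlockRank
import Cfsg.Prelude.Def_Local
import Cfsg.Prelude.Def_Transfer

/-! Interface for S4606 (`k(B) - l(B) = 1`): the pieces and the assembly. -/
set_option autoImplicit false
namespace H15.Kl
open Subgroup Cfsg
open scoped commutatorElement
universe u

/-- consequence of: centralizers of nontrivial `p`-elements are `p`-nilpotent -/
def CP (p : ℕ) (G : Type u) [Group G] : Prop := ∀ x g y : G, x ≠ 1 → (∃ k, x ^ p ^ k = 1) → Commute x g → Commute x y →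
  ¬ p ∣ orderOf g → ¬ p ∣ orderOf ⁅g, y⁆
/-- a `p'`-element normalizing a `p`-subgroup and fixing a nontrivial element of it centralizes it -/
def FF (p : ℕ) (G : Type u) [Group G] : Prop := ∀ (Q : Subgroup G) (g x : G), IsPGroup p Q → g ∈ normalizer (Q : Set G) →
  ¬ p ∣ orderOf g → x ∈ Q → x ≠ 1 → Commute x g → ∀ y ∈ Q, Commute y g
/-- all nontrivial elements of `D` are conjugate in `G` -/
def AC {G : Type u} [Group G] (D : Subgroup G) : Prop := ∀ x ∈ D, ∀ y ∈ D, x ≠ 1 → y ≠ 1 → IsConj x y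

def PA : Prop := ∀ (G : Type u) [Group G] [Finite G] (p : ℕ) [Fact p.Prime] (M : Ideal AlgInt), IsPModular p M →
  ∀ B : Set (IrrCharacter G), IsPBlock M B → Nat.card B = blockRank p B + 1 →
  ∀ x y : G, x ≠ 1 → y ≠ 1 → (∃ k, orderOf x = p ^ k) → (∃ k, orderOf y = p ^ k) →
  ∀ b b', IsInducedBlock M (centralizer ({x} : Set G)) b B → IsInducedBlock M (centralizer ({y} : Set G)) b' B →
  IsConj x y ∧ blockRank p b = 1
def PB : Prop := ∀ (G : Type u) [Group G] [Finite G] (p : ℕ) [Fact p.Prime] (M : Ideal AlgInt), IsPModular p M →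
  ∀ B : Set (IrrCharacter G), IsPBlock M B → ∀ D : Subgroup G, IsDefectGroup p M B D → Nat.card B = blockRank p B + 1 →
  IsPGroup p D ∧ AC D ∧ (B = principalBlock M G → CP p G ∧ ∃ S : Sylow p G, (S : Subgroup G) = D)
def PS : Prop := ∀ (G : Type u) [Group G] [Finite G] (p : ℕ) [Fact p.Prime] (D : Subgroup G), IsPSolvable p G →
  IsPGroup p D → AC D → IsElementaryAbelian p D
def PF : Prop := ∀ (G : Type u) [Group G] [Finite G] (p : ℕ) [Fact p.Prime], CP p G → FF p G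
def PE : Prop := ∀ (G : Type u) [Group G] [Finite G] (p : ℕ) [Fact p.Prime] (D : Subgroup G), p ≠ 2 → CP p G → FF p G →
  IsPGroup p D → D ≠ ⊥ → 2 ∣ (centralizer (D : Set G)).relIndex (normalizer (D : Set G)) →
  ¬ p ∣ (centralizer (D : Set G)).relIndex (normalizer (D : Set G))
def PO : Prop := ∀ (V : Type u) [CommGroup V] [Finite V] [Nontrivial V] (p : ℕ) [Fact p.Prime] (Y : Subgroup (MulAut V)),
  IsPGroup p V → Odd (Nat.card Y) → (∀ y ∈ Y, y ≠ 1 → ¬ p ∣ orderOf y → ∀ v, y v = v → v = 1) →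
  (∀ y ∈ Y, y ^ p = 1 → y ≠ 1 → ∀ v, ∏ i ∈ Finset.range p, (y ^ i) v = 1) →
  (∀ K : Subgroup Y, K.Normal → IsPGroup p K → K = ⊥) → ¬ p ∣ Nat.card Y
/-- the local configuration produced by Alperin's fusion theorem -/
def Loc (p : ℕ) {G : Type u} [Group G] (P D : Subgroup G) : Prop := D ≤ P ∧ D ≠ ⊥ ∧
  (∃ r ∈ P, r ∈ normalizer (D : Set G) ∧ r ∉ D ⊔ centralizer (D : Set G)) ∧
  (pPrimePCore p ↥(normalizer (D : Set G))).map (normalizer (D : Set G)).subtype = D ⊔ centralizer (D : Set G)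
def PM1 : Prop := ∀ (G : Type u) [Group G] [Finite G] (p : ℕ) [Fact p.Prime] (P : Sylow p G), AC (P : Subgroup G) →
  ¬ IsMulCommutative (P : Subgroup G) → ∃ D, Loc p (P : Subgroup G) D
def PM2 : Prop := ∀ (G : Type u) [Group G] [Finite G] (p : ℕ) [Fact p.Prime] (P : Sylow p G) (D : Subgroup G), p ≠ 2 →
  CP p G → FF p G → (∀ y : G, (∃ k, y ^ p ^ k = 1) → y ^ p = 1) → ¬ Loc p (P : Subgroup G) D

end H15.Kl
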