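import Cfsg.Agent.H4.PSol
import Cfsg.Agent.H9.Lf0

/-! Piece `PS` of S3297: the subgroup generated by two conjugates of elements of `Ω₁ Z(P)` (`H15.Lf.pS`). -/

namespace H15.Lf
open Subgroup Cfsg H9.Lf

universe u

variable {G : Type u} [Group G] {p : ℕ}

/-- `Ω₁ Z(P)` -/
def ZZ (p : ℕ) (P : Subgroup G) : Subgroup G where
  carrier := {x | Zs p P x}
  one_mem' := ⟨P.one_mem, one_pow _, fun y _ => by rw [one_mul, mul_one]⟩
  mul_mem' := fun {a b} ha hb => ⟨P.mul_mem ha.1 hb.1,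
    by rw [Commute.mul_pow (ha.2.2 b hb.1), ha.2.1, hb.2.1, one_mul],
    fun y hy => Commute.mul_left (ha.2.2 y hy) (hb.2.2 y hy)⟩
  inv_mem' := fun {a} ha => ⟨P.inv_mem ha.1, by rw [inv_pow, ha.2.1, inv_one],
    fun y hy => Commute.inv_left (ha.2.2 y hy)⟩

theorem pz {Γ : Type*} [Group Γ] {a : Γ} {k : ℕ} (h : a ^ p ^ k = 1) : IsPGroup p (zpowers a) := by
  rintro ⟨_, j, rfl⟩
  refine ⟨k, Subtype.ext ?_⟩
  show (a ^ j) ^ p ^ k = 1
  rw [← zpow_natCast, ← zpow_mul, mul_comm, zpow_mul, zpow_natCast, h, one_zpow]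

theorem cjs {Γ : Type*} [Group Γ] [Finite Γ] [Fact p.Prime] (P : Sylow p Γ) {S : Subgroup Γ} (hS : IsPGroup p S) :
    ∃ k : Γ, ∀ s ∈ S, k * s * k⁻¹ ∈ (P : Subgroup Γ) := by
  obtain ⟨Q, hQ⟩ := hS.exists_le_sylow
  obtain ⟨k, rfl⟩ := MulAction.exists_smul_eq Γ Q P
  exact ⟨k, fun s hs => smul_mem_pointwise_smul s (MulAut.conj k) _ (hQ hs)⟩

theorem cj [Finite G] [Fact p.Prime] (P : Sylow p G) (hA : HA ⊤ (P : Subgroup G)) {S : Subgroup G}
    (hS : IsPGroup p S) : ∃ k : G, ∀ s ∈ S, k * s * k⁻¹ ∈ (P : Subgroup G) ∧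
      ((∃ t, Zs p (P : Subgroup G) (t * s * t⁻¹)) → Zs p (P : Subgroup G) (k * s * k⁻¹)) := by
  obtain ⟨k, hk⟩ := cjs P hS
  refine ⟨k, fun s hs => ⟨hk s hs, fun ⟨t, ht⟩ => ?_⟩⟩
  obtain ⟨n, -, hn, e⟩ := hA _ ht.1 _ (hk s hs) ⟨k * t⁻¹, mem_top _, by group⟩
  refine ⟨hk s hs, by rw [← e, conj_pow, ht.2.1, mul_one, mul_inv_cancel], fun y hy => ?_⟩
  have := ht.2.2 (n⁻¹ * y * n⁻¹⁻¹) ((mem_normalizer_iff.1 (inv_mem hn) y).1 hy)
  rw [← e]
  generalize t * s * t⁻¹ = z at this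
  rw [show n * z * n⁻¹ * y = n * (z * (n⁻¹ * y * n⁻¹⁻¹)) * n⁻¹ by group, this]; group

theorem core [Finite G] [Fact p.Prime] (P : Sylow p G) (hA : HA ⊤ (P : Subgroup G)) {Γ : Type u} [Group Γ] [Finite Γ]
    {f : Γ →* G} (hf : Function.Injective f) (hs : H4.PSol p (⊤ : Subgroup Γ)) {u v : Γ}
    (hu : ∃ t, Zs p (P : Subgroup G) (t * f u * t⁻¹)) (hv : ∃ t, Zs p (P : Subgroup G) (t * f v * t⁻¹))
    (ht : closure {u, v} = ⊤) : (∀ a : Γ, (∃ k, a ^ p ^ k = 1) → ∃ t, Zs p (P : Subgroup G) (t * f a * t⁻¹)) ∧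
      (¬ p ∣ orderOf (u * v) → IsConj u v⁻¹) := by
  let π := QuotientGroup.mk' (pPrimeCore p Γ)
  have hπ := QuotientGroup.mk'_surjective (pPrimeCore p Γ)
  have hC := (hs.quotient (pPrimeCore p Γ)).centralizer_pCore_le (H17.pPrimeCore_quotient Γ p)
  have P1 : ∀ {a : Γ}, (∃ t, Zs p (P : Subgroup G) (t * f a * t⁻¹)) → a ^ p ^ 1 = 1 := fun ⟨t, h⟩ => hf (by
    have := h.2.1
    rw [conj_pow, mul_inv_eq_one, mul_eq_left] at this
    rw [pow_one, map_pow, this, map_one])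
  have B : ∀ {a : Γ}, (∃ t, Zs p (P : Subgroup G) (t * f a * t⁻¹)) →
      π a ∈ centralizer (pCore p (Γ ⧸ pPrimeCore p Γ) : Set _) := fun {a} ha r hr => by
    obtain ⟨S, hS⟩ := (pz (P1 ha)).exists_le_sylow
    obtain ⟨s, hs, rfl⟩ := H1.pCore_le_sylow (S.mapSurjective hπ) hr
    obtain ⟨k, hk⟩ := cj P hA (S.isPGroup'.map f)
    have := ((hk _ (mem_map_of_mem f (hS (mem_zpowers a)))).2 ha).2.2 _ (hk _ (mem_map_of_mem f hs)).1
    rw [conj_mul, conj_mul, mul_left_inj, mul_right_inj, ← map_mul, ← map_mul] at this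
    rw [← map_mul, ← map_mul, hf this]
  have R : ∀ a, π a ∈ pCore p (Γ ⧸ pPrimeCore p Γ) := fun a =>
    (ht.ge.trans ((closure_le ((pCore p _).comap π)).2 (by
      rintro _ (rfl | rfl)
      · exact hC (B hu)
      · exact hC (B hv)))) (mem_top a)
  obtain ⟨S, hS⟩ := (pz (P1 hu)).exists_le_sylow
  have uS := hS (mem_zpowers u)
  obtain ⟨c, hc⟩ := cjs S (pz (P1 hv))
  have vS := hc v (mem_zpowers v)
  have e1 : π (c * v * c⁻¹) = π v := by rw [map_mul, map_mul, map_inv, B hv _ (R c), mul_inv_cancel_right]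
  have inj : ∀ s ∈ (S : Subgroup Γ), π s = 1 → s = 1 := fun s hs h =>
    mem_bot.1 (H4.inf_pPrimeCore_eq_bot S.isPGroup' ▸ mem_inf.2 ⟨hs, (QuotientGroup.eq_one_iff s).1 h⟩)
  refine ⟨fun a ⟨j, ha⟩ => ?_, fun h => ?_⟩
  · obtain ⟨k, hk⟩ := cj P hA (S.isPGroup'.map f)
    let T : Subgroup Γ := S ⊓ (ZZ p (P : Subgroup G)).comap ((MulAut.conj k).toMonoidHom.comp f)
    have T1 : ∀ b, π b ∈ T.map π := fun b => (ht.ge.trans ((closure_le ((T.map π).comap π)).2 (by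
      rintro _ (rfl | rfl)
      · exact mem_map_of_mem π (mem_inf.2 ⟨uS, (hk _ (mem_map_of_mem f uS)).2 hu⟩)
      · obtain ⟨t, ht⟩ := hv
        exact ⟨_, mem_inf.2 ⟨vS, (hk _ (mem_map_of_mem f vS)).2 ⟨t * (f c)⁻¹, by
          rw [map_mul, map_mul, map_inv]; convert ht using 1; group⟩⟩, e1⟩))) (mem_top b)
    obtain ⟨d, hd⟩ := cjs S (pz ha)
    have aS := hd a (mem_zpowers a)
    obtain ⟨b, hb, e⟩ := T1 (d * a * d⁻¹)
    have e2 := inj _ (mul_mem (inv_mem (mem_inf.1 hb).1) aS) (by rw [map_mul, map_inv, e, inv_mul_cancel])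
    obtain rfl : b = d * a * d⁻¹ := inv_mul_eq_one.1 e2
    refine ⟨k * f d, ?_⟩
    have : Zs p (P : Subgroup G) (k * f (d * a * d⁻¹) * k⁻¹) := (mem_inf.1 hb).2
    rw [map_mul, map_mul, map_inv] at this
    convert this using 1; group
  · obtain ⟨j, hj⟩ := (H1.pCore_isPGroup p (Γ ⧸ pPrimeCore p Γ)) ⟨_, R (u * v)⟩
    have e2 : π (u * v) = 1 := H26.eq_one_of_pow_coprime
      (((Nat.Prime.coprime_iff_not_dvd Fact.out).2 h).pow_left j) (congrArg Subtype.val hj)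
      (by rw [← map_pow, pow_orderOf_eq_one, map_one])
    have := inj _ (mul_mem uS vS) (by rw [map_mul, e1, ← map_mul, e2])
    exact (isConj_iff.2 ⟨c, by rw [eq_inv_of_mul_eq_one_left this]; group⟩ : IsConj v⁻¹ u).symm

theorem pS : PS.{u} := fun G _ _ p _ P hA hC x y g hx hy => by
  have o : ∀ {z : G}, Zs p (P : Subgroup G) z → z ≠ 1 → orderOf z = p := fun hz h => orderOf_eq_prime hz.2.1 h
  have hs : H4.PSol p (closure {g * x * g⁻¹, y}) := by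
    by_cases e : x = 1
    · refine (H4.pSol_of_isPGroup (pz (k := 1) (by rw [pow_one]; exact hy.2.1))).mono ((closure_le _).2 ?_)
      rintro _ (rfl | rfl)
      · simp [e]
      · exact mem_zpowers _
    by_cases e' : y = 1
    · refine (H4.pSol_of_isPGroup (pz (a := g * x * g⁻¹) (k := 1) (by
        rw [pow_one, conj_pow, hx.2.1, mul_one, mul_inv_cancel]))).mono ((closure_le _).2 ?_)
      rintro _ (rfl | rfl)
      · exact mem_zpowers _
      · simp [e']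
    exact H4.isPSolvable_subgroup_iff.1 (hC _ _ (((MulAut.conj g).orderOf_eq x).trans (o hx e)) (o hy e'))
  have m1 : g * x * g⁻¹ ∈ closure {g * x * g⁻¹, y} := subset_closure (.inl rfl)
  have m2 : y ∈ closure {g * x * g⁻¹, y} := subset_closure (.inr rfl)
  obtain ⟨h1, h2⟩ := core P hA (closure {g * x * g⁻¹, y}).subtype_injective (H4.pSol_top_iff.2 hs)
    (u := ⟨_, m1⟩) (v := ⟨_, m2⟩) ⟨g⁻¹, by simpa [mul_assoc] using hx⟩ ⟨1, by simpa using hy⟩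
    (map_injective (Subgroup.subtype_injective _) (by
      rw [MonoidHom.map_closure, ← MonoidHom.range_eq_map, range_subtype, Set.image_pair]; rfl))
  refine ⟨fun a ha ⟨k, hk⟩ => h1 ⟨a, zpowers_le_of_mem (mul_mem m1 m2) ha⟩ ⟨k, Subtype.ext hk⟩, fun h => ?_⟩
  have := (closure {g * x * g⁻¹, y}).subtype.map_isConj (h2 (by rwa [← Subgroup.orderOf_coe]))
  exact (isConj_iff.2 ⟨g, rfl⟩).trans this

end H15.Lf
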