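import Cfsg.Agent.H14.Dw2
import Cfsg.Agent.H15.Std3

/-! Standard machine: `PSL 3` over the field with 3 elements on the points, generated by elementary transvections
Generated certificate (tools14/pkgen, tools15/std.py) for the permutation group StdL33 of degree 13, order 5616, base 0 1 3 6. -/
set_option autoImplicit false
set_option maxRecDepth 100000

namespace H15.StdL33
open H14

noncomputable def n0 : Net := (.cons (nat_lit 1) (nat_lit 0x10)
(.cons (nat_lit 2) (nat_lit 0x120)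
(.cons (nat_lit 4) (nat_lit 0x104)
(.cons (nat_lit 8) (nat_lit 0x14)
(.cons (nat_lit 4) (nat_lit 0x108)
(.cons (nat_lit 2) (nat_lit 0x32)
(.cons (nat_lit 1) (nat_lit 0x44)
.nil)))))))
theorem n0_ok : Net.ok 13 n0 = true := by decide +kernel
noncomputable def n1 : Net := (.cons (nat_lit 1) (nat_lit 0x110)
(.cons (nat_lit 2) (nat_lit 0x100)
(.cons (nat_lit 4) (nat_lit 0xc)
(.cons (nat_lit 8) (nat_lit 0xc)
(.cons (nat_lit 4) (nat_lit 0x104)
(.cons (nat_lit 2) (nat_lit 0x210)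
(.cons (nat_lit 1) (nat_lit 0x450)
.nil)))))))
theorem n1_ok : Net.ok 13 n1 = true := by decide +kernel
noncomputable def n2 : Net := (.cons (nat_lit 1) (nat_lit 0x404)
(.cons (nat_lit 4) (nat_lit 0x6)
(.cons (nat_lit 8) (nat_lit 0x6)
(.cons (nat_lit 4) (nat_lit 0x2)
(.cons (nat_lit 2) (nat_lit 0x22)
(.cons (nat_lit 1) (nat_lit 0x405)
.nil))))))
theorem n2_ok : Net.ok 13 n2 = true := by decide +kernel
noncomputable def n3 : Net := (.cons (nat_lit 1) (nat_lit 0x510)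
(.cons (nat_lit 2) (nat_lit 0x200)
(.cons (nat_lit 4) (nat_lit 0x2)
(.cons (nat_lit 8) (nat_lit 0x2)
(.cons (nat_lit 4) (nat_lit 0xe)
(.cons (nat_lit 2) (nat_lit 0x12)
(.cons (nat_lit 1) (nat_lit 0x510)
.nil)))))))
theorem n3_ok : Net.ok 13 n3 = true := by decide +kernel
noncomputable def n4 : Net := (.cons (nat_lit 1) (nat_lit 0x404)
(.cons (nat_lit 2) (nat_lit 0x201)
(.cons (nat_lit 4) (nat_lit 0x10a)
(.cons (nat_lit 8) (nat_lit 0xb)
(.cons (nat_lit 4) (nat_lit 0x3)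
(.cons (nat_lit 2) (nat_lit 0x121)
(.cons (nat_lit 1) (nat_lit 0x450)
.nil)))))))
theorem n4_ok : Net.ok 13 n4 = true := by decide +kernel
noncomputable def n5 : Net := (.cons (nat_lit 1) (nat_lit 0x4)
(.cons (nat_lit 2) (nat_lit 0x201)
(.cons (nat_lit 4) (nat_lit 0x102)
(.cons (nat_lit 8) (nat_lit 0x3)
(.cons (nat_lit 4) (nat_lit 0x10b)
(.cons (nat_lit 2) (nat_lit 0x131)
(.cons (nat_lit 1) (nat_lit 0x450)
.nil)))))))
theorem n5_ok : Net.ok 13 n5 = true := by decide +kernel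
noncomputable def n6 : Net := (.cons (nat_lit 1) (nat_lit 0x40)
(.cons (nat_lit 2) (nat_lit 0x210)
(.cons (nat_lit 4) (nat_lit 0x8)
(.cons (nat_lit 8) (nat_lit 0x18)
(.cons (nat_lit 4) (nat_lit 0xc)
(.cons (nat_lit 2) (nat_lit 0x210)
(.cons (nat_lit 1) (nat_lit 0x440)
.nil)))))))
theorem n6_ok : Net.ok 13 n6 = true := by decide +kernel
noncomputable def n7 : Net := (.cons (nat_lit 1) (nat_lit 0x140)
(.cons (nat_lit 2) (nat_lit 0x10)
(.cons (nat_lit 4) (nat_lit 0xa)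
(.cons (nat_lit 8) (nat_lit 0x1a)
(.cons (nat_lit 4) (nat_lit 0xa)
(.cons (nat_lit 2) (nat_lit 0x110)
(.cons (nat_lit 1) (nat_lit 0x140)
.nil)))))))
theorem n7_ok : Net.ok 13 n7 = true := by decide +kernel
noncomputable def nets : List Net := [n0, n1, n2, n3, n4, n5, n6, n7]
theorem nets_ok : netsOk 13 nets = true := List.all_eq_true.2 (fa_cons n0_ok (fa_cons n1_ok (fa_cons n2_ok (fa_cons n3_ok (fa_cons n4_ok (fa_cons n5_ok (fa_cons n6_ok (fa_cons n7_ok (fa_nil)))))))))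
noncomputable def ss : List (Nat × Nat) := [(0, 0)]
noncomputable def ws4 : List Word := []
noncomputable def reach : List Word := [dw (nat_lit 0x05), dw (nat_lit 0x01), dw (nat_lit 0x07), dw (nat_lit 0x0804), dw (nat_lit 0x01), dw (nat_lit 0x03)]
noncomputable def lev3 : Level := ⟨nat_lit 6,
[⟨[nat_lit 12], [], [],
[⟨nat_lit 0, [], nat_lit 1, [], []⟩,
⟨nat_lit 1, [], nat_lit 0, [], []⟩,
⟨nat_lit 2, [], nat_lit 3, [], []⟩,
⟨nat_lit 3, [], nat_lit 2, [], []⟩],
[]⟩,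
⟨[nat_lit 14], [], [],
[⟨nat_lit 0, [], nat_lit 2, [], []⟩,
⟨nat_lit 1, [], nat_lit 3, [], []⟩,
⟨nat_lit 2, [], nat_lit 0, [], []⟩,
⟨nat_lit 3, [], nat_lit 1, [], []⟩],
[]⟩],
[⟨dw (nat_lit 0x01), (nat_lit 0x200), [], .nil, []⟩,
⟨dw (nat_lit 0x03), (nat_lit 0x800), [], .nil, []⟩,
⟨dw (nat_lit 0x0301), (nat_lit 0x400), [], .nil, []⟩]⟩
noncomputable def ex3 : List Word := []
noncomputable def ws3 : List Word := List.append ex3 (lev3.gens ws4)
noncomputable def rels3 : List (Word × Word) := List.append (lev3.rels ws4) (memRels (lev3.gens ws4) ex3 [])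
noncomputable def lev2 : Level := ⟨nat_lit 3,
[⟨[nat_lit 2], [], [],
[⟨nat_lit 0, [], nat_lit 1, [], []⟩,
⟨nat_lit 1, [], nat_lit 1, dw (nat_lit 0x03), dw (nat_lit 0x03)⟩,
⟨nat_lit 2, [], nat_lit 3, [], []⟩,
⟨nat_lit 3, [], nat_lit 1, dw (nat_lit 0x01), []⟩,
⟨nat_lit 1, dw (nat_lit 0x01), nat_lit 2, [], []⟩,
⟨nat_lit 1, dw (nat_lit 0x03), nat_lit 0, [], dw (nat_lit 0x03)⟩,
⟨nat_lit 2, dw (nat_lit 0x03), nat_lit 1, dw (nat_lit 0x0301), []⟩,
⟨nat_lit 3, dw (nat_lit 0x01), nat_lit 2, dw (nat_lit 0x03), dw (nat_lit 0x0301)⟩,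
⟨nat_lit 1, dw (nat_lit 0x0301), nat_lit 3, dw (nat_lit 0x01), dw (nat_lit 0x0301)⟩],
[]⟩],
[⟨dw (nat_lit 0x01), (nat_lit 0xe40), [dw (nat_lit 0x01), dw (nat_lit 0x03)], .nil, []⟩,
⟨dw (nat_lit 0x010301), (nat_lit 0x120), [dw (nat_lit 0x03)], (.cons (nat_lit 6) [dw (nat_lit 0x01)] [dw (nat_lit 0x01)]
.nil), [dw (nat_lit 0x01)]⟩,
⟨dw (nat_lit 0x020301), (nat_lit 0x1080), [dw (nat_lit 0x01)], (.cons (nat_lit 6) [dw (nat_lit 0x0203)] [dw (nat_lit 0x01)]
.nil), [dw (nat_lit 0x0301)]⟩]⟩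
noncomputable def ex2 : List Word := [[nat_lit 8], [nat_lit 10]]
noncomputable def ws2 : List Word := List.append ex2 (lev2.gens ws3)
noncomputable def rels2 : List (Word × Word) := List.append (lev2.rels ws3) (memRels (lev2.gens ws3) ex2 [dw (nat_lit 0x0203), dw (nat_lit 0x01030205)])
noncomputable def lev1 : Level := ⟨nat_lit 1,
[⟨[nat_lit 6], [dw (nat_lit 0x0307), dw (nat_lit 0x0809)], [dw (nat_lit 0x07), dw (nat_lit 0x0907)],
[⟨nat_lit 0, [], nat_lit 1, [], []⟩,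
⟨nat_lit 1, [], nat_lit 1, dw (nat_lit 0x04), dw (nat_lit 0x040907)⟩,
⟨nat_lit 2, [], nat_lit 1, dw (nat_lit 0x0202), dw (nat_lit 0x0109)⟩,
⟨nat_lit 1, dw (nat_lit 0x01), nat_lit 1, dw (nat_lit 0x01), dw (nat_lit 0x05)⟩,
⟨nat_lit 1, dw (nat_lit 0x04), nat_lit 0, [], dw (nat_lit 0x030907)⟩,
⟨nat_lit 1, dw (nat_lit 0x05), nat_lit 2, [], []⟩],
[dw (nat_lit 0x01), dw (nat_lit 0x03)]⟩],
[⟨dw (nat_lit 0x01), (nat_lit 0x1fe8), [dw (nat_lit 0x01), dw (nat_lit 0x03), dw (nat_lit 0x01), dw (nat_lit 0x01)], (.cons (nat_lit 6) [dw (nat_lit 0x07), dw (nat_lit 0x09)] [dw (nat_lit 0x01), dw (nat_lit 0x03)]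
.nil), [dw (nat_lit 0x0307), dw (nat_lit 0x0309)]⟩,
⟨dw (nat_lit 0x010701), (nat_lit 0x14), [dw (nat_lit 0x01)], (.cons (nat_lit 3) [dw (nat_lit 0x05), dw (nat_lit 0x0203)] [dw (nat_lit 0x01), dw (nat_lit 0x03), dw (nat_lit 0x05), dw (nat_lit 0x01)]
(.cons (nat_lit 6) [dw (nat_lit 0x09)] [dw (nat_lit 0x01)]
.nil)), [dw (nat_lit 0x05), dw (nat_lit 0x010907), dw (nat_lit 0x0307)]⟩]⟩
noncomputable def ex1 : List Word := [[nat_lit 0]]
noncomputable def ws1 : List Word := List.append ex1 (lev1.gens ws2)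
noncomputable def rels1 : List (Word × Word) := List.append (lev1.rels ws2) (memRels (lev1.gens ws2) ex1 [dw (nat_lit 0x010701070b09)])
noncomputable def lev0 : Level := ⟨nat_lit 0,
[⟨[nat_lit 4], [dw (nat_lit 0x0205), dw (nat_lit 0x09), dw (nat_lit 0x060a070d)], [dw (nat_lit 0x060d), dw (nat_lit 0x09), dw (nat_lit 0x060b)],
[⟨nat_lit 0, [], nat_lit 1, [], []⟩,
⟨nat_lit 1, [], nat_lit 1, dw (nat_lit 0x01), dw (nat_lit 0x01080b)⟩,
⟨nat_lit 1, dw (nat_lit 0x01), nat_lit 0, [], dw (nat_lit 0x02080b)⟩,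
⟨nat_lit 1, dw (nat_lit 0x03), nat_lit 1, dw (nat_lit 0x0401), dw (nat_lit 0x0301080b)⟩],
[dw (nat_lit 0x01), dw (nat_lit 0x03), dw (nat_lit 0x01), dw (nat_lit 0x03), dw (nat_lit 0x03)]⟩],
[⟨dw (nat_lit 0x01), (nat_lit 0x1ffe), [dw (nat_lit 0x01), dw (nat_lit 0x03), dw (nat_lit 0x05), dw (nat_lit 0x03), dw (nat_lit 0x05)], (.cons (nat_lit 3) [dw (nat_lit 0x05)] [dw (nat_lit 0x01), dw (nat_lit 0x0203), dw (nat_lit 0x03), dw (nat_lit 0x01)]
(.cons (nat_lit 6) [dw (nat_lit 0x0b), dw (nat_lit 0x0d)] [dw (nat_lit 0x01), dw (nat_lit 0x03)]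
.nil)), [dw (nat_lit 0x02060d), dw (nat_lit 0x0205050d0b), dw (nat_lit 0x090d)]⟩]⟩
noncomputable def ex0 : List Word := []
noncomputable def ws0 : List Word := List.append ex0 (lev0.gens ws1)
noncomputable def rels0 : List (Word × Word) := List.append (lev0.rels ws1) (memRels (lev0.gens ws1) ex0 [])
noncomputable def prim0 : List (List Word) := [[dw (nat_lit 0x01), dw (nat_lit 0x01), dw (nat_lit 0x05), dw (nat_lit 0x07), dw (nat_lit 0x05), dw (nat_lit 0x07)]]
noncomputable def rels : List (Word × Word) := List.append rels0 (List.append rels1 (List.append rels2 (List.append rels3 ([]))))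
noncomputable def defs : List Word := [dw (nat_lit 0x06020603070308020804), dw (nat_lit 0x080909080902080407070709), dw (nat_lit 0x040c0c0a), dw (nat_lit 0x0409040b)]
noncomputable def relsD : List (Word × Word) := defRels defs 4
noncomputable def relsO : List (Word × Word) := memRels ws0 (lets 4) [dw (nat_lit 0x03), dw (nat_lit 0x0b), dw (nat_lit 0x01), dw (nat_lit 0x05)]
noncomputable def relsS : List (Word × Word) := []
noncomputable def allRels : List (Word × Word) := List.append rels (List.append relsD (List.append relsO relsS))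
theorem reach_ok : subs (full 13) (orbRun nets (lets 4) reach (bits (List.map Prod.fst ss))) = true := by decide +kernel
theorem chk3 : lev3.chk 13 nets ws4 1 4 = true := by decide +kernel
theorem chk2 : lev2.chk 13 nets ws3 4 36 = true := by decide +kernel
theorem chk1 : lev1.chk 13 nets ws2 36 432 = true := by decide +kernel
theorem primc0 : PM.primChk nets ws1 lev0 lev0.sos prim0 = true := by decide +kernel
theorem chk0 : lev0.chk 13 nets ws1 432 5616 = true := by decide +kernel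
theorem rc0 : relsChk 13 nets 4 (idArr 13 4 4 0) allRels = true := by decide +kernel
section
variable {Γ Ω : Type*} [Group Γ] [MulAction Γ Ω] (M : PM Γ Ω 13 nets)

theorem all_ok (hs : M.Sep 4 (idArr 13 4 4 0)) : Rels M.gen allRels := (M.rels_of_chk hs rc0)
theorem sep [FaithfulSMul Γ Ω] : M.Sep 4 (idArr 13 4 4 0) := M.sep_idArr (by decide)
theorem all_ok' [FaithfulSMul Γ Ω] : Rels M.gen allRels := all_ok M (sep M)
theorem rels_of_all {gen : ℕ → Γ} (h : Rels gen allRels) : Rels gen rels := Rels.left h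
theorem relsD_of_all {gen : ℕ → Γ} (h : Rels gen allRels) : Rels gen relsD := Rels.left (Rels.right h)
theorem relsO_of_all {gen : ℕ → Γ} (h : Rels gen allRels) : Rels gen relsO := Rels.left (Rels.right (Rels.right h))
theorem relsS_of_all {gen : ℕ → Γ} (h : Rels gen allRels) : Rels gen relsS := Rels.right (Rels.right (Rels.right h))
theorem card4 (_hR : Rels M.gen rels) : Nat.card (sub M.gen ws4) = 1 := M.card_nil
theorem fixw4 (_hR : Rels M.gen rels) : M.FixTriv ws4 [] := M.fixTriv_nil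
theorem r3 (hR : Rels M.gen rels) : Rels M.gen rels3 := (Rels.left (Rels.right (Rels.right (Rels.right hR))))
theorem res3 (hR : Rels M.gen rels) : M.LevelRes ws4 lev3 4 := M.level (card4 M hR) chk3 (Rels.left (r3 M hR))
theorem ext3 (hR : Rels M.gen rels) : sub M.gen ws3 = sub M.gen (lev3.gens ws4) := sub_extend (Rels.right (r3 M hR))
theorem card3 (hR : Rels M.gen rels) : Nat.card (sub M.gen ws3) = 4 := by rw [ext3 M hR]; exact (res3 M hR).card
theorem fix3 (hR : Rels M.gen rels) : M.FixTriv (lev3.gens ws4) [6] := (res3 M hR).fixTriv M (fixw4 M hR)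
theorem fixw3 (hR : Rels M.gen rels) : M.FixTriv ws3 [6] := fun g hg => fix3 M hR g (ext3 M hR ▸ hg)
theorem stab3 (hR : Rels M.gen rels) : sub M.gen ws3 ⊓ MulAction.stabilizer Γ (M.dec 6) = sub M.gen ws4 := by rw [ext3 M hR]; exact (res3 M hR).stab
theorem orb3 (hR : Rels M.gen rels) (y : Ω) : y ∈ M.S lev3.orb ↔ ∃ g ∈ sub M.gen ws3, g • M.dec 6 = y := by rw [ext3 M hR]; exact (res3 M hR).orb y
theorem r2 (hR : Rels M.gen rels) : Rels M.gen rels2 := (Rels.left (Rels.right (Rels.right hR)))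
theorem res2 (hR : Rels M.gen rels) : M.LevelRes ws3 lev2 36 := M.level (card3 M hR) chk2 (Rels.left (r2 M hR))
theorem ext2 (hR : Rels M.gen rels) : sub M.gen ws2 = sub M.gen (lev2.gens ws3) := sub_extend (Rels.right (r2 M hR))
theorem card2 (hR : Rels M.gen rels) : Nat.card (sub M.gen ws2) = 36 := by rw [ext2 M hR]; exact (res2 M hR).card
theorem fix2 (hR : Rels M.gen rels) : M.FixTriv (lev2.gens ws3) [3, 6] := (res2 M hR).fixTriv M (fixw3 M hR)
theorem fixw2 (hR : Rels M.gen rels) : M.FixTriv ws2 [3, 6] := fun g hg => fix2 M hR g (ext2 M hR ▸ hg)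
theorem stab2 (hR : Rels M.gen rels) : sub M.gen ws2 ⊓ MulAction.stabilizer Γ (M.dec 3) = sub M.gen ws3 := by rw [ext2 M hR]; exact (res2 M hR).stab
theorem orb2 (hR : Rels M.gen rels) (y : Ω) : y ∈ M.S lev2.orb ↔ ∃ g ∈ sub M.gen ws2, g • M.dec 3 = y := by rw [ext2 M hR]; exact (res2 M hR).orb y
theorem r1 (hR : Rels M.gen rels) : Rels M.gen rels1 := (Rels.left (Rels.right hR))
theorem res1 (hR : Rels M.gen rels) : M.LevelRes ws2 lev1 432 := M.level (card2 M hR) chk1 (Rels.left (r1 M hR))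
theorem ext1 (hR : Rels M.gen rels) : sub M.gen ws1 = sub M.gen (lev1.gens ws2) := sub_extend (Rels.right (r1 M hR))
theorem card1 (hR : Rels M.gen rels) : Nat.card (sub M.gen ws1) = 432 := by rw [ext1 M hR]; exact (res1 M hR).card
theorem fix1 (hR : Rels M.gen rels) : M.FixTriv (lev1.gens ws2) [1, 3, 6] := (res1 M hR).fixTriv M (fixw2 M hR)
theorem fixw1 (hR : Rels M.gen rels) : M.FixTriv ws1 [1, 3, 6] := fun g hg => fix1 M hR g (ext1 M hR ▸ hg)
theorem stab1 (hR : Rels M.gen rels) : sub M.gen ws1 ⊓ MulAction.stabilizer Γ (M.dec 1) = sub M.gen ws2 := by rw [ext1 M hR]; exact (res1 M hR).stab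
theorem orb1 (hR : Rels M.gen rels) (y : Ω) : y ∈ M.S lev1.orb ↔ ∃ g ∈ sub M.gen ws1, g • M.dec 1 = y := by rw [ext1 M hR]; exact (res1 M hR).orb y
theorem r0 (hR : Rels M.gen rels) : Rels M.gen rels0 := (Rels.left hR)
theorem res0 (hR : Rels M.gen rels) : M.LevelRes ws1 lev0 5616 := M.level (card1 M hR) chk0 (Rels.left (r0 M hR))
theorem ext0 (hR : Rels M.gen rels) : sub M.gen ws0 = sub M.gen (lev0.gens ws1) := sub_extend (Rels.right (r0 M hR))
theorem card0 (hR : Rels M.gen rels) : Nat.card (sub M.gen ws0) = 5616 := by rw [ext0 M hR]; exact (res0 M hR).card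
theorem fix0 (hR : Rels M.gen rels) : M.FixTriv (lev0.gens ws1) [0, 1, 3, 6] := (res0 M hR).fixTriv M (fixw1 M hR)
theorem fixw0 (hR : Rels M.gen rels) : M.FixTriv ws0 [0, 1, 3, 6] := fun g hg => fix0 M hR g (ext0 M hR ▸ hg)
theorem stab0 (hR : Rels M.gen rels) : sub M.gen ws0 ⊓ MulAction.stabilizer Γ (M.dec 0) = sub M.gen ws1 := by rw [ext0 M hR]; exact (res0 M hR).stab
theorem orb0 (hR : Rels M.gen rels) (y : Ω) : y ∈ M.S lev0.orb ↔ ∃ g ∈ sub M.gen ws0, g • M.dec 0 = y := by rw [ext0 M hR]; exact (res0 M hR).orb y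
theorem max0 (hR : Rels M.gen rels) (X : Subgroup Γ) (h1 : sub M.gen ws1 ≤ X) (h2 : X ≤ sub M.gen ws0) : X = sub M.gen ws1 ∨ X = sub M.gen ws0 := by rw [ext0 M hR] at h2 ⊢; exact (res0 M hR).max M primc0 X h1 h2
theorem orig_eq {gen : ℕ → Γ} (h : Rels gen allRels) : sub gen (lets 4) = sub gen ws0 :=
  sub_lets_eq_of_rels (ds := defs) (by decide +kernel) (relsD_of_all h) (by decide +kernel) (relsO_of_all h)
theorem gen_mem {gen : ℕ → Γ} (h : Rels gen allRels) {X : Subgroup Γ} (h0 : ∀ l < 4, gen l ∈ X) : sub gen ws0 ≤ X :=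
  sub_le_of_wsIn (lo := 0) (gen_mem_of_defRels (ds := defs) (fun l _ hl => h0 l hl) (by decide +kernel) (relsD_of_all h)) (by decide +kernel)

end

/-- the permutation group -/
noncomputable abbrev P := permPM 13 nets (by decide) (by decide) nets_ok
theorem allP : Rels P.gen allRels := all_ok' P
/-- machines of this type -/
abbrev St (X : Type*) [Group X] := Std X 13 nets ws0 5616 allRels
/-- the presentation on the strong generators -/
theorem hom {X : Type*} [Group X] (S : St X) {Δ : Type*} [Group Δ] (y : ℕ → Δ) (hy : Rels y rels) :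
    ∃ φ : X →* Δ, φ.range = sub y ws0 ∧ ∀ w ∈ ws0, φ (H14.ev S.M.gen w) = H14.ev y w :=
  S.hom_ws y (card0 _ ((rels_of_all S.rels).prod hy))
/-- the presentation on all letters -/
theorem hom' {X : Type*} [Group X] (S : St X) {Δ : Type*} [Group Δ] (y : ℕ → Δ) (hy : Rels y allRels) :
    ∃ φ : X →* Δ, φ.range = sub y (lets 4) ∧ ∀ l < 8, φ (S.M.gen l) = y l :=
  S.hom_all y (card0 _ (rels_of_all (S.rels.prod hy))) (orig_eq (S.rels.prod hy)) (orig_eq hy) (ds := defs)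
    (by decide +kernel) (relsD_of_all (S.rels.prod hy)) (by decide +kernel)
/-- the matrices of the first letters (and their inverses) -/
def As : List (ℕ × ℕ) :=
[(nat_lit 0x10105, nat_lit 0x10109),
  (nat_lit 0x10501, nat_lit 0x10901),
  (nat_lit 0x10141, nat_lit 0x10181),
  (nat_lit 0x14101, nat_lit 0x18101)]
/-- the vectors -/
def V : ℕ := nat_lit 0x10458494699584546141
theorem eqv_ok : c3.eqvM 3 13 [1, 2] V As nets 4 = true := by decide +kernel
theorem sep_ok : c3.sepM 3 13 [1, 2] V (ss.map Prod.fst) = true := by decide +kernel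
theorem ctrP : ∀ z ∈ sub P.gen (lets 4), (∀ x ∈ sub P.gen (lets 4), x * z = z * x) → z = 1 :=
  orig_eq allP ▸ center_triv (res0 P (rels_of_all allP)) (ext0 P (rels_of_all allP)) (card1 P (rels_of_all allP))
    (by decide) primc0 (fix0 P (rels_of_all allP)) (by decide +kernel)
theorem core {F : Type*} [Field F] {a : Ar F} (ha : Ok a c3 3) {ι : Type} [Fintype ι] [DecidableEq ι]
    {e : ι ≃ Fin 3} {T X : Type*} [Group T] [Group X] {ρ : T →* Matrix ι ι F} (h : Mem a e ρ As 4)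
    (q : T →* X) (hq : ∀ g, q g = 1 → g = 1 ∨ g ∈ Subgroup.center T ∧ ∀ z ∈ sub P.gen (lets 4), (∀ x ∈ sub P.gen (lets 4), x * z = z * x) → z = 1)
    (hB : Bd (⊤ : Subgroup X) 5616) : ∃ S : St X, Spec S a e ρ q As 4 [1, 2] V (ss.map Prod.fst) :=
  h.std ha (by decide +kernel) eqv_ok reach_ok sep_ok q hq (ds := defs) (by decide +kernel) (by decide +kernel)
    (relsD_of_all allP) hB (orig_eq allP) (card0 P (rels_of_all allP)) allP
theorem std_spec {F : Type*} [Field F] [Fintype F] (hF : Fintype.card F = 3) {a : Ar F} (ha : Ok a c3 3) :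
    ∃ S : St (Matrix.ProjectiveSpecialLinearGroup (Fin 3) F), Spec S a (Equiv.refl _) (slM (Fin 3) F) (QuotientGroup.mk' _) As 4 [1, 2] V (ss.map Prod.fst) :=
  core ha (mem_sl _ ha.1 (p := 3) ha.2.2 (by norm_num) (L := As) (by decide +kernel)) _ (hq_ctr ctrP) (bd_psl hF (by decide +kernel))
theorem std {F : Type*} [Field F] [Fintype F] (hF : Fintype.card F = 3) : Nonempty (St (Matrix.ProjectiveSpecialLinearGroup (Fin 3) F)) :=
  let ⟨_, ha⟩ := ar_3 (F := F) hF
  let ⟨S, _⟩ := std_spec hF ha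
  ⟨S⟩
theorem stdSL_spec {F : Type*} [Field F] [Fintype F] (hF : Fintype.card F = 3) {a : Ar F} (ha : Ok a c3 3) :
    ∃ S : St (Matrix.SpecialLinearGroup (Fin 3) F), Spec S a (Equiv.refl _) (slM (Fin 3) F) (MonoidHom.id _) As 4 [1, 2] V (ss.map Prod.fst) :=
  core ha (mem_sl _ ha.1 (p := 3) ha.2.2 (by norm_num) (L := As) (by decide +kernel)) _ hq_id (bd_sl hF (by decide +kernel))
theorem stdSL {F : Type*} [Field F] [Fintype F] (hF : Fintype.card F = 3) : Nonempty (St (Matrix.SpecialLinearGroup (Fin 3) F)) :=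
  let ⟨_, ha⟩ := ar_3 (F := F) hF
  let ⟨S, _⟩ := stdSL_spec hF ha
  ⟨S⟩

end H15.StdL33
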