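import Cfsg.Agent.H15.StdTits
import Cfsg.Agent.H15.Emb2

/-! The machines of type `StdTits.St` are simple groups (`StdTits.St.simple`, `tits_simple`, `StdTits.sub_simple`). -/

namespace H15.StdTits
open H14

theorem rc : relsChk 1755 nets 11 (idArr 1755 11 11 0)
    [([0, 0], []), ([2, 2, 2], []), (powW [0, 2] 13, [])] = true := by decide +kernel

theorem St.simple {X : Type*} [Group X] (S : St X) : IsSimpleGroup X := by
  have := S.faithful
  have hR := rels_of_all S.rels
  have h := S.M.rels_of_idArr (by decide) rc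
  have h1 : S.M.gen 0 * S.M.gen 0 = 1 := by simpa [letter] using h ([0, 0], []) (by simp)
  have h2 : S.M.gen 1 * (S.M.gen 1 * S.M.gen 1) = 1 := by simpa [letter, mul_assoc] using h ([2, 2, 2], []) (by simp)
  refine simple_of_top ((res0 S.M hR).simple (ext0 S.M hR) (card1 S.M hR) (by decide) primc0 (fix0 S.M hR)
    (by decide +kernel) (z := H14.ev S.M.gen [0, 2]) (S.top ▸ Subgroup.mem_top _) (m := 13)
    (pow_eq_one_of_rels fun p hp => h p (by simp at hp; simp [hp])) (by norm_num) fun Y hn hz => ?_) S.top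
  have h3 : S.M.gen 1 * S.M.gen 0 ∈ Y := by simpa [letter] using hz
  have h4 := mul_mem h3 (hn (S.M.gen 0) (S.top ▸ Subgroup.mem_top _) _ h3)
  have h5 : S.M.gen 1 ∈ Y := by
    have e : S.M.gen 1 * S.M.gen 0 * (S.M.gen 0 * (S.M.gen 1 * S.M.gen 0) * (S.M.gen 0)⁻¹) = (S.M.gen 1)⁻¹ := by
      rw [eq_inv_iff_mul_eq_one, ← h2, ← mul_assoc (S.M.gen 0), mul_inv_cancel_right, mul_assoc (S.M.gen 1),
        ← mul_assoc (S.M.gen 0), h1, one_mul, mul_assoc]
    exact inv_mem_iff.1 (e ▸ h4)
  refine gen_mem S.rels fun l hl => ?_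
  obtain rfl | rfl : l = 0 ∨ l = 1 := by omega
  exacts [(mul_mem_cancel_left h5).1 h3, h5]

theorem tits_simple : IsSimpleGroup Cfsg.Lie.TitsGroup := let ⟨S⟩ := std; S.simple

/-- words satisfying the relations generate a simple group of this order -/
theorem sub_simple {Δ : Type*} [Group Δ] {y : ℕ → Δ} (hy : Rels y allRels) (h : y 0 ≠ 1) :
    IsSimpleGroup (sub y (lets 2)) ∧ Nat.card (sub y (lets 2)) = 17971200 := by
  obtain ⟨S⟩ := std
  obtain ⟨φ, h1, h2⟩ := hom' S y hy
  have := St.simple S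
  have e := MonoidHom.ofInjective (inj_of_simple φ (g := S.M.gen 0) (h2 0 (by decide) ▸ h))
  rw [← h1]
  exact ⟨e.symm.isSimpleGroup, (Nat.card_congr e.symm.toEquiv).trans S.card⟩

end H15.StdTits
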